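import Mathlib
import Cfsg.Agent.McL.Main
import Cfsg.Agent.Class.Orth.OmegaCrit
import Cfsg.Agent.Fus.LinP

set_option autoImplicit false
set_option linter.unusedSectionVars false

/-! Irreducible subgroups of `Sp(V)`, characteristic 2, containing a complement to the
transvections in the unipotent radical of a vector stabiliser (Cameron--Kantor). -/

namespace Cfsg.Agent.McL

open Module Cfsg.Agent.Class.Max Cfsg.Agent.Class.Orth

variable {F V : Type*} [Field F] [Fintype F] [CharP F 2] [AddCommGroup V] [Module F V]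
  [FiniteDimensional F V] {B : LinearMap.BilinForm F V} {L : Subgroup (V ≃ₗ[F] V)}
  {a b m m' o : V} {c c' : F}

/-- `L` contains the element of the unipotent radical with parameters `m`, `c` -/
def Sg (B : LinearMap.BilinForm F V) (L : Subgroup (V ≃ₗ[F] V)) (a m : V) (c : F) : Prop :=
  ∃ g ∈ L, ∀ v, g v = v + B v m • a + B v a • m + (c * B v a) • a

/-- the points in the orbit of `o` -/
def Pt (L : Subgroup (V ≃ₗ[F] V)) (o b : V) : Prop := ∃ g ∈ L, ∃ t : F, t ≠ 0 ∧ b = t • g o

theorem Pt.map (h : Pt L o b) {g : V ≃ₗ[F] V} (hg : g ∈ L) : Pt L o (g b) := by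
  obtain ⟨k, hk, t, t0, rfl⟩ := h
  exact ⟨g * k, mul_mem hg hk, t, t0, map_smul _ _ _⟩

theorem Pt.smul (h : Pt L o b) (hc : c ≠ 0) : Pt L o (c • b) := by
  obtain ⟨k, hk, t, t0, rfl⟩ := h
  exact ⟨k, hk, c * t, mul_ne_zero hc t0, smul_smul _ _ _⟩

theorem Pt.refl : Pt L o o := ⟨1, one_mem _, 1, one_ne_zero, (one_smul _ _).symm⟩

theorem Pt.symm (h : Pt L o b) : Pt L b o := by
  obtain ⟨k, hk, t, t0, rfl⟩ := h
  exact ⟨k⁻¹, inv_mem hk, t⁻¹, inv_ne_zero t0, by simp [smul_smul, t0]⟩

theorem Pt.trans (h : Pt L o a) (h' : Pt L a b) : Pt L o b := by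
  obtain ⟨k, hk, t, t0, rfl⟩ := h'
  exact (h.map hk).smul t0

theorem Sg.smul_iff (t : F) : Sg B L (t • a) m c ↔ Sg B L a (t • m) (c * t ^ 2) := by
  refine exists_congr fun g => and_congr_right fun _ => forall_congr' fun v => ?_
  rw [show v + B v m • t • a + B v (t • a) • m + (c * B v (t • a)) • t • a =
    v + B v (t • m) • a + B v a • t • m + (c * t ^ 2 * B v a) • a by
      simp only [map_smul, smul_eq_mul]; module]

theorem Sg.add_smul (h : Sg B L a m c) (t : F) : Sg B L a (m + t • a) c := by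
  obtain ⟨g, hg, e⟩ := h
  refine ⟨g, hg, fun v => ?_⟩
  simp only [e, map_add, map_smul, smul_eq_mul]
  match_scalars <;> grind

theorem Sg.zero : Sg B L a 0 0 := ⟨1, one_mem _, fun v => by simp⟩

theorem exists_perp_perp (B : LinearMap.BilinForm F V) (a b : V) {W : Submodule F V}
    (h : finrank F W + 2 < finrank F V) : ∃ v, B v a = 0 ∧ B v b = 0 ∧ v ∉ W := by
  by_contra hn
  push Not at hn
  have h1 := LinearMap.finrank_range_add_finrank_ker ((B.flip a).prod (B.flip b))
  have h2 := Submodule.finrank_le (LinearMap.range ((B.flip a).prod (B.flip b)))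
  have h3 := Submodule.finrank_mono (show LinearMap.ker ((B.flip a).prod (B.flip b)) ≤ W from
    fun v hv => hn v (congrArg Prod.fst hv) (congrArg Prod.snd hv))
  simp only [finrank_prod, finrank_self] at h2
  omega

/-- the hypotheses -/
structure CK (B : LinearMap.BilinForm F V) (L : Subgroup (V ≃ₗ[F] V)) (o : V) : Prop where
  alt : B.IsAlt
  nd : ∀ x, (∀ y, B x y = 0) → x = 0
  le : L ≤ isoB B
  irr : Irr L
  ne : o ≠ 0
  all : ∀ m, B m o = 0 → ∃ c, Sg B L o m c
  dim : 4 ≤ finrank F V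

namespace CK

variable (h : CK B L o)
include h

theorem sy (x y : V) : B x y = B y x := by rw [← h.alt.neg_eq, CharTwo.neg_eq]

theorem self (x : V) : B x x = 0 := h.alt.self_eq_zero x

theorem exists_dual {W : Submodule F V} {v : V} (hv : v ∉ W) (c : F) :
    ∃ m, (∀ w ∈ W, B m w = 0) ∧ B m v = c := by
  obtain ⟨φ, h1, h2⟩ := exists_dual_one W hv
  obtain ⟨m, rfl⟩ := (LinearMap.injective_iff_surjective_of_finrank_eq_finrank
    Subspace.dual_finrank_eq.symm).mp ((injective_iff_map_eq_zero B).mpr fun x e =>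
      h.nd x (LinearMap.congr_fun e)) φ
  exact ⟨c • m, fun w hw => by simp [h1 w hw], by simp [h2]⟩

theorem exists_dual1 {v : V} (hv : v ∉ Submodule.span F {a}) (c : F) :
    ∃ m, B m a = 0 ∧ B m v = c := by
  obtain ⟨m, h1, h2⟩ := h.exists_dual hv c
  exact ⟨m, h1 a (Submodule.mem_span_singleton_self a), h2⟩

theorem add (h1 : Sg B L a m c) (h2 : Sg B L a m' c') (e1 : B m a = 0) (e2 : B m' a = 0) :
    Sg B L a (m + m') (c + c' + B m m') := by
  obtain ⟨g, hg, e⟩ := h1
  obtain ⟨k, hk, e'⟩ := h2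
  refine ⟨k * g, mul_mem hk hg, fun v => ?_⟩
  simp only [mul_app, e, e', map_add, map_smul, LinearMap.add_apply, LinearMap.smul_apply,
    smul_eq_mul, h.self, e1, h.sy a m', e2]
  module

theorem diff (h1 : Sg B L a m c) (h2 : Sg B L a m c') (e1 : B m a = 0) : Sg B L a 0 (c + c') := by
  have := h.add h1 h2 e1 e1
  rwa [h.self, add_zero, ← two_smul F m, CharTwo.two_eq_zero, zero_smul] at this

theorem conj (h1 : Sg B L a m c) {g : V ≃ₗ[F] V} (hg : g ∈ L) : Sg B L (g a) (g m) c := by
  obtain ⟨k, hk, e⟩ := h1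
  refine ⟨g * k * g⁻¹, mul_mem (mul_mem hg hk) (inv_mem hg), fun v => ?_⟩
  have : ∀ x, B (g⁻¹ v) x = B v (g x) := fun x => by rw [← h.le hg, app_inv_app]
  simp only [mul_app, e, map_add, map_smul, app_inv_app, this]

theorem pt_ne (hb : Pt L o b) : b ≠ 0 := by
  obtain ⟨k, -, t, t0, rfl⟩ := hb
  exact smul_ne_zero t0 (by simpa using h.ne)

theorem pt (hb : Pt L o b) : CK B L b := by
  refine ⟨h.alt, h.nd, h.le, h.irr, h.pt_ne hb, fun m hm => ?_, h.dim⟩
  obtain ⟨k, hk, t, t0, rfl⟩ := hb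
  obtain ⟨c, hc⟩ := h.all (t • k⁻¹ m) (by
    rw [← h.le hk]; simpa [t0] using hm)
  refine ⟨c / t ^ 2, (Sg.smul_iff t).mpr ?_⟩
  simpa [t0] using h.conj hc hk

theorem span_pt : Submodule.span F {b | Pt L o b} = ⊤ := by
  refine (h.irr _ fun g hg v hv => ?_).resolve_left fun e =>
    h.ne ((Submodule.mem_bot F).mp (e ▸ Submodule.subset_span Pt.refl))
  exact (Submodule.span_le (p := (Submodule.span F {b | Pt L o b}).comap g.toLinearMap)).mpr
    (fun b hb => Submodule.subset_span (Pt.map hb hg)) hv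

theorem exists_opp : ∃ b, Pt L o b ∧ B b o = 1 := by
  by_contra hn
  push Not at hn
  refine h.ne (h.nd o fun y => (Submodule.span_le (p := LinearMap.ker (B o))).mpr (fun b hb => ?_)
    (h.span_pt ▸ Submodule.mem_top))
  by_contra e
  exact hn _ (Pt.smul hb (inv_ne_zero e)) (by
    rw [map_smul, LinearMap.smul_apply, h.sy b o]; exact inv_mul_cancel₀ e)

theorem line (ha : Pt L o a) (hb : Pt L o b) (e : B b a = 0) (hn : b ∉ Submodule.span F {a})
    (t : F) : Pt L o (b + t • a) := by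
  obtain ⟨m, h1, h2⟩ := h.exists_dual1 hn t
  obtain ⟨c, g, hg, k⟩ := (h.pt ha).all m h1
  simpa [k, e, h.sy b m, h2] using hb.map hg

theorem rel (h1 : Sg B L b m c) (e1 : B m a = 0) (e2 : B b a = 0) {v : V} {d : F}
    (h2 : Sg B L a v d) (e3 : B v a = 0) :
    Sg B L a (B v m • b + B v b • m + (c * B v b) • b) (c * B v b ^ 2) := by
  obtain ⟨g, hg, e⟩ := h1
  have := h.conj h2 hg
  rw [show g a = a by simp [e, h.sy a, e1, e2]] at this
  convert h.add h2 this e3 (by simp [e, e1, e2, e3]) using 1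
  · rw [e]; match_scalars <;> grind
  · simp only [e, map_add, map_smul, smul_eq_mul, h.self]; grind

theorem le_of_full (hP : ∀ v, v ≠ 0 → Pt L o v) (hc : ∀ c, Sg B L o 0 c) : isoB B ≤ L := by
  refine fun g hg => sp_le_of_tv B h.alt h.nd (fun v c => ?_) hg
  by_cases v0 : v = 0
  · rw [v0, smul_zero]; exact hasTv_zero_right _
  obtain ⟨k, hk, t, t0, rfl⟩ := hP v v0
  obtain ⟨s, hs, e⟩ : Sg B L (t • k o) 0 c :=
    (Sg.smul_iff t).mpr (by simpa using h.conj (hc (c * t ^ 2)) hk)
  exact ⟨s, hs, fun x => by rw [e, h.sy _ x, map_zero]; module⟩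

theorem full_of_six (hP : ∀ v, v ≠ 0 → Pt L o v) (h5 : 5 ≤ finrank F V) (c : F) :
    Sg B L o 0 c := by
  classical
  have k : ∀ b, B b o = 0 → Sg B L o b 0 := fun b hb => by
    by_cases b0 : b = 0
    · rw [b0]; exact Sg.zero
    obtain ⟨v, v1, v2, v3⟩ := exists_perp_perp B o b (W := Submodule.span F {o, b}) (by
      have h1 := finrank_span_finset_le_card (R := F) ({o, b} : Finset V)
      have := Finset.card_le_two (a := o) (b := b)
      rw [Set.finrank, Finset.coe_pair] at h1
      omega)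
    obtain ⟨m, m1, m2⟩ := h.exists_dual v3 1
    have m3 := m1 o (Submodule.subset_span (by simp))
    obtain ⟨c, hc⟩ := (h.pt (hP b b0)).all m (m1 b (Submodule.subset_span (by simp)))
    obtain ⟨d, hd⟩ := h.all v v1
    simpa [v2, h.sy v m, m2] using h.rel hc m3 hb hd v1
  obtain ⟨v, v1, -, v3⟩ := exists_perp_perp B o o (W := Submodule.span F {o}) (by
    rw [finrank_span_singleton h.ne]; omega)
  obtain ⟨m, m1, m2⟩ := h.exists_dual1 v3 c
  simpa [m2] using h.diff (h.add (k m m1) (k v v1) m1 v1) (k _ (by simp [m1, v1])) (by simp [m1, v1])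

theorem rel4 {s : F} (ha : Pt L o a) (h1 : Sg B L b (s • a) c) (e : B b a = 0)
    (hn : b ∉ Submodule.span F {a}) (t : F) : Sg B L a ((c * t) • b) (c * t ^ 2) := by
  obtain ⟨v, v1, rfl⟩ := h.exists_dual1 hn t
  obtain ⟨d, hd⟩ := (h.pt ha).all v v1
  have := (h.rel h1 (by simp [h.self]) e hd v1).add_smul (B v b * s)
  convert this using 1
  simp only [map_smul, v1, smul_zero]
  match_scalars <;> grind

theorem exists_rel : ∃ (a : V) (s c : F), c ≠ 0 ∧ B a o = 0 ∧ a ∉ Submodule.span F {o} ∧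
    Sg B L o (s • a) c := by
  obtain ⟨v, v1, -, v3⟩ := exists_perp_perp B o o (W := Submodule.span F {o}) (by
    rw [finrank_span_singleton h.ne]; have := h.dim; omega)
  obtain ⟨m, m1, m2⟩ := h.exists_dual1 v3 1
  by_contra hn
  push Not at hn
  have k : ∀ m c, B m o = 0 → Sg B L o m c → c = 0 := fun m c e hc => by
    by_contra c0
    by_cases e1 : m ∈ Submodule.span F {o}
    · obtain ⟨t, rfl⟩ := Submodule.mem_span_singleton.mp e1
      exact hn v 0 c c0 v1 v3 (by
        convert hc.add_smul t using 1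
        match_scalars <;> grind)
    · exact hn m 1 c c0 e e1 (by simpa using hc)
  obtain ⟨c, hc⟩ := h.all m m1
  obtain ⟨d, hd⟩ := h.all v v1
  simpa [k m c m1 hc, k v d v1 hd, m2] using k _ _ (by simp [m1, v1]) (h.add hc hd m1 v1)

theorem card_two (hP : ∀ v, v ≠ 0 → Pt L o v) (hn : ¬ isoB B ≤ L) (t : F) (t0 : t ≠ 0) :
    t = 1 := by
  obtain ⟨a, s, c, c0, e, n1, k⟩ := h.exists_rel
  have a0 : a ≠ 0 := by rintro rfl; exact n1 (Submodule.zero_mem _)
  have n2 : o ∉ Submodule.span F {a} := fun k => by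
    obtain ⟨r, rfl⟩ := Submodule.mem_span_singleton.mp k
    exact n1 (Submodule.mem_span_singleton.mpr ⟨r⁻¹, by
      rw [smul_smul, inv_mul_cancel₀ (left_ne_zero_of_smul h.ne), one_smul]⟩)
  have k1 := h.rel4 (hP a a0) k (h.sy o a ▸ e) n2
  by_contra t1
  refine hn (h.le_of_full hP fun d => ?_)
  obtain ⟨r, hr⟩ := FiniteField.isSquare_of_char_two (ringChar.eq F 2)
    (d / ((c * t ^ 2)⁻¹ + c⁻¹))
  have k2 := h.rel4 Pt.refl (k1 t) e n1 (r / (c * t ^ 2))
  have k3 := h.rel4 Pt.refl (k1 1) e n1 (r / c)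
  rw [mul_div_cancel₀ _ (by positivity)] at k2
  rw [one_pow, mul_one, mul_div_cancel₀ _ c0] at k3
  convert h.diff k2 k3 (by simp [e]) using 1
  have : (c * t ^ 2)⁻¹ + c⁻¹ ≠ 0 := fun e => t1 (by field_simp at e; grind)
  rw [div_eq_iff this] at hr
  rw [hr]; field_simp

theorem card_dvd (hP : ∀ v, v ≠ 0 → Pt L o v) (h2 : ∀ t : F, t ≠ 0 → t = 1)
    (h4 : finrank F V = 4) : 120 ∣ Nat.card L := by
  have : Finite V := Module.finite_of_finite F
  have hF : Nat.card F = 2 := (Nat.card_eq_two_iff' 0).mpr ⟨1, one_ne_zero, h2⟩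
  have h1 : 15 ∣ Nat.card L := by
    have e : MulAction.orbit L o = {0}ᶜ := Set.ext fun v => ⟨by
      rintro ⟨g, rfl⟩
      exact h.pt_ne (Pt.refl.map g.2), fun hv => by
      obtain ⟨g, hg, t, t0, rfl⟩ := hP v hv
      exact ⟨⟨g, hg⟩, by rw [h2 t t0, one_smul]; rfl⟩⟩
    have := (MulAction.stabilizer L o).index_dvd_card
    rwa [MulAction.index_stabilizer, e, Set.ncard_compl, Set.ncard_singleton,
      Module.natCard_eq_pow_finrank (K := F), hF, h4] at this
  obtain ⟨b, s, c, c0, e, n1, k⟩ := h.exists_rel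
  have b0 : b ≠ 0 := by rintro rfl; exact n1 (Submodule.zero_mem _)
  have n2 : o ∉ Submodule.span F {b} := fun k => by
    obtain ⟨r, rfl⟩ := Submodule.mem_span_singleton.mp k
    rw [h2 r (left_ne_zero_of_smul h.ne), one_smul] at n1
    exact n1 (Submodule.mem_span_singleton_self b)
  obtain ⟨x, hx, ex⟩ := h.rel4 (hP b b0) k (h.sy o b ▸ e) n2 1
  rw [h2 c c0] at ex
  obtain ⟨w, w1, w2⟩ : ∃ w, B w o = 1 ∧ B w b = 1 := by
    obtain ⟨u, u1, u2⟩ := h.exists_dual1 n1 1
    obtain ⟨v, v1, v2⟩ := h.exists_dual1 n2 1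
    exact ⟨u + v, by simp [u1, v2], by simp [u2, v1]⟩
  let S := L ⊓ MulAction.stabilizer (V ≃ₗ[F] V) o
  have x1 : x ∈ S := ⟨hx, show x o = o by simp [ex, h.self, h.sy o b, e]⟩
  have x2 : x w = w + o := by
    rw [ex, map_smul, w1, w2, smul_eq_mul]; match_scalars <;> grind
  have h8 : 8 ∣ Nat.card L := by
    have e : MulAction.orbit S w = (fun v => w + v) '' (LinearMap.ker (B.flip o) : Set V) :=
      Set.ext fun v => ⟨by
        rintro ⟨g, rfl⟩
        refine ⟨g.1 w - w, ?_, add_sub_cancel _ _⟩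
        have := h.le g.2.1 w o
        rw [show g.1 o = o from g.2.2] at this
        simp [this], by
        rintro ⟨m, hm, rfl⟩
        obtain ⟨d, g, hg, eg⟩ := h.all m hm
        have g1 : g o = o := by simp [eg, h.self, h.sy o m, show B m o = 0 from hm]
        by_cases z : B w m + d = 0
        · refine ⟨⟨g, hg, g1⟩, show g w = w + m from ?_⟩
          rw [eg, w1]; match_scalars <;> grind
        · refine ⟨⟨g, hg, g1⟩ * ⟨x, x1⟩, show g (x w) = w + m from ?_⟩
          have := h2 _ z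
          rw [x2, map_add, g1, eg, w1]; match_scalars <;> grind⟩
    have k1 := (MulAction.stabilizer S w).index_dvd_card
    have k2 := LinearMap.finrank_range_add_finrank_ker (B.flip o)
    rw [LinearMap.range_eq_top.mpr fun t => ⟨t • w, by simp [w1]⟩, finrank_top, finrank_self] at k2
    rw [MulAction.index_stabilizer, e, Set.ncard_image_of_injective _ (add_right_injective w),
      ← Nat.card_coe_set_eq, SetLike.coe_sort_coe, Module.natCard_eq_pow_finrank (K := F), hF,
      show finrank F (LinearMap.ker (B.flip o)) = 3 by omega] at k1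
    exact k1.trans (Subgroup.card_dvd_of_le inf_le_left)
  exact Nat.Coprime.mul_dvd_of_dvd_of_dvd (by norm_num : Nat.Coprime 15 8) h1 h8

variable (hP : ¬ ∀ v, v ≠ 0 → Pt L o v)
include hP

theorem one (ha : Pt L o a) (hb : Pt L o b) (e : B b a = 1) {t : F} (ht : Pt L o (b + t • a)) :
    t = 0 := by
  obtain ⟨m, m1, m2, m3⟩ : ∃ m, B m a = 0 ∧ m ≠ 0 ∧ ¬ Pt L o m := by
    by_contra hn
    push Not at hn
    refine hP fun v v0 => ?_
    obtain ⟨u, a1, a2, a3⟩ := exists_perp_perp B a v (W := ⊥) (by have := h.dim; simp; omega)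
    obtain ⟨g, hg, t, t0, rfl⟩ := ha.symm.trans (hn u a1 a3)
    have := hn (g⁻¹ v) (by rw [← h.le hg, app_inv_app, h.sy]; simpa [t0] using a2)
      (by simpa using v0)
    simpa using this.map hg
  obtain ⟨u, u1, u2, u3, u4⟩ : ∃ u, B u a = 0 ∧ B u b = 0 ∧ u ≠ 0 ∧ ¬ Pt L o u := by
    have n : m + B m b • a ∉ Submodule.span F {a} := fun k => by
      obtain ⟨r, rfl⟩ := Submodule.mem_span_singleton.mp ((Submodule.add_mem_iff_left _
        (Submodule.smul_mem _ _ (Submodule.mem_span_singleton_self a))).mp k)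
      exact m3 (ha.smul (left_ne_zero_of_smul m2))
    have k : B (m + B m b • a) a = 0 := by simp [m1, h.self]
    refine ⟨_, k, by simp [h.sy a b, e, CharTwo.add_self_eq_zero], fun k => n (k ▸ zero_mem _),
      fun p => m3 ?_⟩
    convert h.line ha p k n (B m b) using 1
    match_scalars <;> grind
  choose c g hg eg using fun s : F => (h.pt ha).all (s • u) (by simp [u1])
  have k : ∀ l s : F, Pt L o (b + l • a) → Pt L o (b + s • u + (l + c s) • a) := fun l s p => by
    convert p.map (hg s) using 1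
    simp only [eg, map_add, map_smul, LinearMap.add_apply, LinearMap.smul_apply, h.sy _ u, u1, u2,
      e, h.self, smul_eq_mul]
    module
  have inj : ∀ l l' s s' : F, Pt L o (b + l • a) → Pt L o (b + l' • a) → l + c s = l' + c s' →
      s = s' := fun l l' s s' p p' e1 => by
    by_contra ne
    have n : s + s' ≠ 0 := fun k => ne (by grind)
    refine u4 ?_
    convert (h.line (k l s p) (k l' s' p') (by
      simp [← e1, h.self, h.sy a, h.sy b u, u1, u2, e, CharTwo.add_self_eq_zero]) (fun q => ?_)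
      1).smul (inv_ne_zero n) using 1
    · rw [← e1]; match_scalars <;> grind
    obtain ⟨r, hr⟩ := Submodule.mem_span_singleton.mp q
    obtain rfl : r = 1 := by simpa [e, u1, h.self] using congrArg (B · a) hr
    rw [one_smul, e1, add_left_inj, add_right_inj] at hr
    exact ne (smul_left_injective F u3 hr)
  have b0 : Pt L o (b + (0 : F) • a) := by simpa using hb
  obtain ⟨s, hs⟩ := Finite.injective_iff_surjective.mp (fun s s' e => inj 0 0 s s' b0 b0
    (congrArg _ e)) (t + c 0)
  obtain rfl := inj _ _ s 0 b0 ht (by rw [hs, zero_add])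
  exact (left_eq_add.mp (hs.trans (add_comm _ _)))

theorem uniq (ha : Pt L o a) (h1 : Sg B L a m c) (h2 : Sg B L a m c') (e : B m a = 0) :
    c = c' := by
  obtain ⟨b, hb, e1⟩ := (h.pt ha).exists_opp
  obtain ⟨g, hg, k⟩ := h.diff h1 h2 e
  have := h.one hP ha (ha.trans hb) e1 (t := c + c') (by simpa [k, e1] using (ha.trans hb).map hg)
  grind

variable {u : V} (ha : Pt L o a) (hb : Pt L o b) (e : B b a = 1) (e1 : B u a = 0) (e2 : B u b = 0)
include ha hb e e1 e2

theorem pt_iff (h1 : Sg B L a u c) : Pt L o (b + u + c' • a) ↔ c' = c := by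
  obtain ⟨g, hg, k⟩ := h1
  have : Pt L o (b + u + c • a) := by simpa [k, e, h.sy b u, e2] using hb.map hg
  refine ⟨fun p => ?_, fun k => k ▸ this⟩
  have := h.one hP ha this (by simp [e, e1, h.self]) (t := c + c') (by
    convert p using 1; match_scalars <;> grind)
  grind

theorem of_pt (hu : Pt L o u) (t : F) : Sg B L a (t • u) 0 := by
  obtain ⟨c, hc⟩ := (h.pt ha).all (t • u) (by simp [e1])
  rwa [(h.pt_iff hP ha hb e (by simp [e1]) (by simp [e2]) hc (c' := 0)).mp (by
    simpa using h.line hu hb (h.sy u b ▸ e2) (fun k => by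
      obtain ⟨r, rfl⟩ := Submodule.mem_span_singleton.mp k
      simp [e1] at e) t)]

theorem of_not_pt (u0 : u ≠ 0) (hu : ¬ Pt L o u) {s t : F} (h1 : Sg B L a (s • u) c)
    (h2 : Sg B L a (t • u) c) : s = t := by
  have k := h.add h1 h2 (by simp [e1]) (by simp [e1])
  rw [← add_smul, show c + c + B (s • u) (t • u) = 0 by simp [h.self, CharTwo.add_self_eq_zero]] at k
  have p := (h.pt_iff hP ha hb e (by simp [e1]) (by simp [e2]) k).mpr rfl
  by_contra ne
  have n : s + t ≠ 0 := fun k => ne (by grind)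
  refine hu ?_
  convert (h.line hb p (by simp [h.self, e2]) (fun q => ?_) 1).smul (inv_ne_zero n) using 1
  · match_scalars <;> grind
  obtain ⟨r, hr⟩ := Submodule.mem_span_singleton.mp q
  obtain rfl : r = 1 := by simpa [e, e1] using congrArg (B · a) hr
  simp [n, u0] at hr

theorem hom (h1 : Sg B L a u c) (t : F) : Sg B L a (t • u) (t ^ 2 * c) := by
  by_cases u0 : u = 0
  · subst u0
    rw [h.uniq hP ha h1 Sg.zero e1]; simpa using Sg.zero
  by_cases hu : Pt L o u
  · rw [h.uniq hP ha h1 (by simpa using h.of_pt hP ha hb e e1 e2 hu 1) e1, mul_zero]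
    exact h.of_pt hP ha hb e e1 e2 hu t
  have e' : B a b = 1 := h.sy b a ▸ e
  have ad : ∀ {a : V} {s t y z : F}, B u a = 0 → Sg B L a (s • u) y → Sg B L a (t • u) z →
      Sg B L a ((s + t) • u) (y + z) := fun e p q => by
    simpa [h.self, add_smul] using h.add p q (by simp [e]) (by simp [e])
  have sur : ∀ y, ∃ t : F, Sg B L a (t • u) y := fun y => by
    choose c hc using fun s : F => (h.pt ha).all (s • u) (by simp [e1])
    obtain ⟨t, rfl⟩ := (Finite.injective_iff_surjective (f := c)).mp (fun s t k =>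
      h.of_not_pt hP ha hb e e1 e2 u0 hu (hc s) (k ▸ hc t)) y
    exact ⟨t, hc t⟩
  have rel : ∀ {t y : F}, y ≠ 0 → Sg B L a (t • u) y → Sg B L b ((t / y) • u) y⁻¹ := by
    intro t y y0 p
    obtain ⟨z, hz⟩ := (h.pt hb).all ((t / y) • u) (by simp [e2])
    rwa [(h.pt_iff hP hb ha e' (by simp [e2]) (by simp [e1]) hz (c' := y⁻¹)).mp (by
      convert ((h.pt_iff hP ha hb e (by simp [e1]) (by simp [e2]) p).mpr rfl).smul
        (inv_ne_zero y0) using 1
      match_scalars <;> field_simp)]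
  obtain ⟨s, hs⟩ := sur 1
  have k : ∀ y : F, Sg B L a ((y * s) • u) (y ^ 2) := fun y => by
    by_cases y0 : y = 0
    · simpa [y0] using Sg.zero
    by_cases y1 : y + 1 = 0
    · simpa [show y = 1 by grind] using hs
    obtain ⟨t, ht⟩ := sur y
    obtain ⟨t', ht'⟩ := sur (y * (y + 1))
    have := h.of_not_pt hP hb ha e' e2 e1 u0 hu (rel (mul_ne_zero y0 y1) ht') (by
      convert ad e2 (rel y0 ht) (rel y1 (ad e1 ht hs)) using 1
      field_simp; grind)
    convert ad e1 ht ht' using 2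
    · field_simp at this; grind
    · grind
  have s0 : s ≠ 0 := by
    rintro rfl
    exact one_ne_zero (h.uniq hP ha (by simpa using hs) Sg.zero (by simp))
  rw [h.uniq hP ha h1 (by simpa [s0] using k s⁻¹) e1]
  convert k (t / s) using 2 <;> field_simp

omit ha hb e e1 e2 in
theorem exists_Q : ∃ Q : QuadraticForm F V, (∀ x y, QuadraticMap.polar Q x y = B x y) ∧ Q o = 0 ∧
    (∀ g ∈ L, ∀ v, Q (g v) = Q v) ∧ ∀ s m, Q s = 0 → B s m = 0 → (eichler Q s m).1 ∈ L := by
  obtain ⟨b, hb, e⟩ := h.exists_opp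
  have e' : B o b = 1 := h.sy b o ▸ e
  choose! φ hφ using h.all
  let π : V →ₗ[F] V := LinearMap.id + (B.flip b).smulRight o + (B.flip o).smulRight b
  have hπ : ∀ v, π v = v + B v b • o + B v o • b := fun _ => rfl
  have p1 : ∀ v, B (π v) o = 0 := fun v => by simp [hπ, h.self, e, CharTwo.add_self_eq_zero]
  have p2 : ∀ v, B (π v) b = 0 := fun v => by simp [hπ, h.self, e', CharTwo.add_self_eq_zero]
  have qa : ∀ x y, B (x + y) b * B (x + y) o + φ (π (x + y)) =
      B x b * B x o + φ (π x) + (B y b * B y o + φ (π y)) + B x y := fun x y => by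
    rw [h.uniq hP Pt.refl (hφ _ (p1 _)) (map_add π x y ▸ h.add (hφ _ (p1 x)) (hφ _ (p1 y)) (p1 x)
      (p1 y)) (p1 _), hπ y, map_add (B (π x)), map_add (B (π x)), map_smul, map_smul, p1, p2, hπ x]
    simp only [map_add, map_smul, LinearMap.add_apply, LinearMap.smul_apply, smul_eq_mul,
      h.sy _ y]
    grind
  let Q : QuadraticForm F V :=
    { toFun := fun v => B v b * B v o + φ (π v)
      toFun_smul := fun t v => by
        rw [h.uniq hP Pt.refl (hφ _ (p1 _)) (map_smul π t v ▸ h.hom hP Pt.refl hb e (p1 v) (p2 v)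
          (hφ _ (p1 v)) t) (p1 _)]
        simp only [map_smul, LinearMap.smul_apply, smul_eq_mul]
        ring
      exists_companion' := ⟨B, qa⟩ }
  have hQ : ∀ v, Q v = B v b * B v o + φ (π v) := fun _ => rfl
  have pol : ∀ x y, QuadraticMap.polar Q x y = B x y := fun x y => by
    rw [QuadraticMap.polar, hQ, qa, hQ, hQ]; ring
  have iff1 : ∀ v, B v o = 1 → (Pt L o v ↔ Q v = 0) := fun v k => by
    rw [hQ, k, mul_one, CharTwo.add_eq_zero, ← h.pt_iff hP Pt.refl hb e (p1 v) (p2 v) (hφ _ (p1 v)),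
      show b + π v + B v b • o = v by rw [hπ, k]; match_scalars <;> grind]
  have iff : ∀ v, v ≠ 0 → (Pt L o v ↔ Q v = 0) := fun v v0 => by
    by_cases k : B v o = 0
    swap
    · have := iff1 ((B v o)⁻¹ • v) (by simp [k])
      rw [Q_smul, mul_eq_zero_iff_left (by positivity)] at this
      exact ⟨fun p => this.mp (p.smul (inv_ne_zero k)), fun p => by
        simpa [smul_smul, k] using (this.mpr p).smul k⟩
    have k1 : v = π v + B v b • o := by rw [hπ, k]; match_scalars <;> grind
    rw [hQ, k, mul_zero, zero_add]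
    by_cases u0 : π v = 0
    · rw [u0, zero_add] at k1
      exact iff_of_true (k1 ▸ Pt.refl.smul (left_ne_zero_of_smul (k1 ▸ v0)))
        (by rw [u0]; exact h.uniq hP Pt.refl (hφ 0 (by simp)) Sg.zero (by simp))
    have n : π v ∉ Submodule.span F {o} := fun q => by
      obtain ⟨r, hr⟩ := Submodule.mem_span_singleton.mp q
      have := p2 v
      rw [← hr, map_smul, LinearMap.smul_apply, e', smul_eq_mul, mul_one] at this
      exact u0 (by rw [← hr, this, zero_smul])
    refine ⟨fun p => h.uniq hP Pt.refl (hφ _ (p1 v)) ?_ (p1 v), fun z => ?_⟩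
    · refine (one_smul F (π v)) ▸ h.of_pt hP Pt.refl hb e (p1 v) (p2 v) ?_ 1
      simpa [hπ, k] using h.line Pt.refl p k (fun q => n (by
        rw [hπ, k, zero_smul, add_zero]
        exact add_mem q (Submodule.smul_mem _ _ (Submodule.mem_span_singleton_self o)))) (B v b)
    · rw [k1]
      refine h.line Pt.refl ?_ (p1 v) n _
      by_contra q
      exact one_ne_zero (h.of_not_pt hP Pt.refl hb e (p1 v) (p2 v) u0 q (c := 0)
        (by simpa [z] using hφ _ (p1 v)) (by simpa using Sg.zero))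
  have inv : ∀ g ∈ L, ∀ v, Q (g v) = Q v := fun g hg v => by
    have hv : v ∈ Submodule.span F {b | Pt L o b} := h.span_pt ▸ Submodule.mem_top
    induction hv using Submodule.span_induction with
    | mem x hx => rw [(iff _ (h.pt_ne hx)).mp hx, (iff _ (h.pt_ne (hx.map hg))).mp (hx.map hg)]
    | zero => rw [map_zero]
    | add x y _ _ h1 h2 => rw [map_add, Q_add, Q_add, h1, h2, pol, pol, h.le hg]
    | smul t x _ h1 => rw [map_smul, Q_smul, Q_smul, h1]
  refine ⟨Q, pol, (iff o h.ne).mp Pt.refl, inv, fun s m s1 s2 => ?_⟩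
  by_cases s0 : s = 0
  · rw [s0, eichler_zero_left]; exact one_mem L
  have ps := (iff s s0).mpr s1
  obtain ⟨c, g, hg, k⟩ := (h.pt ps).all m (h.sy s m ▸ s2)
  obtain ⟨w, -, hw⟩ := (h.pt ps).exists_opp
  have := inv g hg w
  simp only [k, Q_add, Q_smul, pol, map_add, map_smul, LinearMap.add_apply, LinearMap.smul_apply,
    hw, s1, s2, h.self, h.sy m s, smul_eq_mul] at this
  convert hg using 1
  ext v
  rw [eichler_apply s1 (pol s m ▸ s2), k, pol, pol]
  match_scalars <;> grind

end CK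

theorem cases_of_eichler {Q : QuadraticForm F V} (hQ : ND Q) (h3 : 3 ≤ finrank F V) {e f : V}
    (hef : IsHyp Q e f) {M : Subgroup (OG Q)}
    (hM : ∀ u v, Q u = 0 → QuadraticMap.polar Q u v = 0 → eichler Q u v ∈ M) :
    M = ⊤ ∨ ∀ g, g ∈ M ↔ Even (finrank F (mov g)) := by
  have hx : (∃ a : F, a ≠ 0 ∧ a ≠ 1) ∨ finrank F (V × V) ≠ 4 := Or.inr (by rw [finrank_prod]; omega)
  have hQ2 := hQ.prod' hQ
  let δ : OG Q →* ℤˣ := ((dickson hQ2 (hQ2.reflGen hx)).comp (prodHom Q Q)).comp (MonoidHom.inl _ _)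
  have hδ : ∀ g, δ g = dicksonFun g := fun g => by
    change (-1 : ℤˣ) ^ finrank F (mov (prodHom Q Q (g, 1))) = _
    rw [finrank_mov_prodHom, mov_one, finrank_bot, add_zero, dicksonFun]
  have h1 : EG Q ≤ δ.ker := EG_le fun u v hu hv => by
    have : prodHom Q Q (eichler Q u v, 1) = eichler (Q.prod Q) (u, 0) (v, 0) := OG.ext fun x => by
      rw [prodHom_apply, eichler_apply hu hv, eichler_apply (by simpa using hu)
        (by simpa [polar_prod'] using hv), polar_prod', polar_prod']
      ext <;> simp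
    change dickson hQ2 (hQ2.reflGen hx) (prodHom Q Q (eichler Q u v, 1)) = 1
    rw [this]
    exact Abelianization.commutator_subset_ker _ (hQ2.EG_le_commutator hx (eichler_mem_EG _ _))
  have h2 : EG Q ⊔ Subgroup.zpowers (refl Q (e + (1 : F) • f)) = ⊤ :=
    hQ.eq_top_of_refl_eichler _ (fun v hv => by
      obtain ⟨r, hr⟩ := FiniteField.isSquare_of_char_two (ringChar.eq F 2) (Q v)
      have r0 : r ≠ 0 := by rintro rfl; exact hv (by simpa using hr)
      have := hQ.refl_mul_refl_mem_EG hef (by omega) (x := r⁻¹ • v) (y := e + (1 : F) • f)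
        (by rw [Q_smul]; positivity) (by rw [Q_smul, hef.Q_add_smul, hr]; field_simp)
      rw [refl_smul (inv_ne_zero r0)] at this
      have k := Subgroup.mul_mem_sup this (Subgroup.mem_zpowers (refl Q (e + (1 : F) • f)))
      rwa [mul_assoc, refl_mul_self, mul_one] at k)
      fun u v _ _ => Subgroup.mem_sup_left (eichler_mem_EG u v)
  have h4 : ∀ g, δ g = 1 → g ∈ M := fun g hg => by
    obtain ⟨x, hx, _, ⟨n, rfl⟩, rfl⟩ := Subgroup.mem_sup_of_normal_left.mp (h2 ▸ Subgroup.mem_top g)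
    rw [map_mul, h1 hx, one_mul, map_zpow, hδ, dicksonFun_refl hQ (by
      rw [hef.Q_add_smul]; exact one_ne_zero)] at hg
    obtain ⟨k, rfl | rfl⟩ := Int.even_or_odd' n
    · beta_reduce; rw [zpow_mul, zpow_two, refl_mul_self, one_zpow, mul_one]; exact EG_le hM hx
    · simp [zpow_add, zpow_mul] at hg
  by_cases c : ∀ g ∈ M, δ g = 1
  · exact Or.inr fun g => (Iff.intro (c g) (h4 g)).trans (by
      rw [hδ, dicksonFun, neg_one_pow_eq_one_iff_even (by decide)])
  push Not at c
  obtain ⟨g, hg, c⟩ := c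
  refine Or.inl (eq_top_iff.mpr fun k _ => ?_)
  rcases Int.units_eq_one_or (δ k) with e | e
  · exact h4 k e
  · exact (mul_mem_cancel_right hg).mp (h4 _ (by
      rw [map_mul, e, (Int.units_eq_one_or (δ g)).resolve_left c]; simp))

/-- the elements of a normal 2-subgroup of a vector stabiliser -/
theorem form_of_normal (hA : B.IsAlt) (hB : ∀ x, (∀ y, B x y = 0) → x = 0) (h3 : 4 ≤ finrank F V)
    (a0 : a ≠ 0) {N : Subgroup (V ≃ₗ[F] V)} (hN : IsPGroup 2 N) (h1 : N ≤ isoB B)
    (h2 : ∀ g ∈ N, g a = a) (h4 : ∀ k ∈ isoB B, k a = a → ∀ g ∈ N, k * g * k⁻¹ ∈ N)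
    {g : V ≃ₗ[F] V} (hg : g ∈ N) : ∃ m c, B m a = 0 ∧
      ∀ v, g v = v + B v m • a + B v a • m + (c * B v a) • a := by
  have : Finite V := Module.finite_of_finite F
  have : Fact (Nat.Prime 2) := ⟨Nat.prime_two⟩
  have sy : ∀ x y, B x y = B y x := fun x y => by rw [← hA.neg_eq, CharTwo.neg_eq]
  have self := hA.self_eq_zero
  obtain ⟨w, w1, w2, w3⟩ := Fus.exists_fixed_mod hN (X := Submodule.span F {a})
    (Y := LinearMap.ker (B.flip a)) (fun k => by
      obtain ⟨v, v1, -, v3⟩ := exists_perp_perp B a a (W := Submodule.span F {a}) (by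
        rw [finrank_span_singleton a0]; omega)
      exact v3 (k v1)) (fun g hg x hx => by
      obtain ⟨r, rfl⟩ := Submodule.mem_span_singleton.mp hx
      rwa [map_smul, h2 g hg]) fun g hg y hy => by
      have := h1 hg y a
      rw [h2 g hg] at this
      exact this.trans hy
  have k1 : ∀ u, B u a = 0 → B w u = 1 → g u - u ∈ Submodule.span F {a} := fun u u1 u2 => by
    let t : V ≃ₗ[F] V := LinearEquiv.ofInvolutive (LinearMap.id + (B u).smulRight u) fun x => by
      simp only [LinearMap.add_apply, LinearMap.id_apply, LinearMap.smulRight_apply,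
        map_add, map_smul, self]
      match_scalars <;> grind
    have ht : ∀ x, t x = x + B x u • u := fun x => by rw [sy x u]; rfl
    have t1 : t a = a := by simp [ht, sy a u, u1]
    have t2 : t ∈ isoB B := fun x y => by
      simp only [ht, map_add, map_smul, LinearMap.add_apply, LinearMap.smul_apply, self, sy u y,
        smul_eq_mul]
      grind
    obtain ⟨r, hr⟩ := Submodule.mem_span_singleton.mp (w3 _ (h4 t⁻¹ (inv_mem t2)
      (t.injective (by rw [app_inv_app, t1])) g hg))
    have := congrArg t hr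
    rw [map_smul, t1, map_sub, inv_inv, mul_app, mul_app, app_inv_app, ht, u2, one_smul,
      map_add] at this
    convert sub_mem (Submodule.smul_mem _ r (Submodule.mem_span_singleton_self a)) (w3 g hg) using 1
    rw [this]; abel
  obtain ⟨u0, e1, e2⟩ : ∃ u, B u a = 0 ∧ B w u = 1 := by
    obtain ⟨φ, h1, h2⟩ := exists_dual_one _ w2
    obtain ⟨m, rfl⟩ := (LinearMap.injective_iff_surjective_of_finrank_eq_finrank
      Subspace.dual_finrank_eq.symm).mp ((injective_iff_map_eq_zero B).mpr fun x e =>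
        hB x (LinearMap.congr_fun e)) φ
    exact ⟨m, h1 a (Submodule.mem_span_singleton_self a), sy m w ▸ h2⟩
  have k2 : ∀ u, B u a = 0 → g u - u ∈ Submodule.span F {a} := fun u u1 => by
    have := sub_mem (k1 (u + (1 - B w u) • u0) (by simp [u1, e1]) (by simp [e2]))
      (Submodule.smul_mem _ (1 - B w u) (k1 u0 e1 e2))
    convert this using 1
    rw [map_add, map_smul]; module
  obtain ⟨b, hb⟩ : ∃ b, B b a = 1 := by
    by_contra hn
    push Not at hn
    refine a0 (hB a fun y => ?_)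
    by_contra e
    exact hn ((B a y)⁻¹ • y) (by simp [sy y a, e])
  have k3 : B (g b - b) a = 0 := by
    have := h1 hg b a
    rw [h2 g hg] at this
    simp [this]
  refine ⟨g b - b, B b (g b - b), k3, fun v => ?_⟩
  obtain ⟨r, hr⟩ := Submodule.mem_span_singleton.mp (k2 (v - B v a • b) (by simp [hb]))
  have k4 := h1 hg (v - B v a • b) b
  obtain ⟨m, hm⟩ : ∃ m, g b = m + b := ⟨_, (sub_add_cancel _ _).symm⟩
  rw [← sub_add_cancel (g (v - B v a • b)) (v - B v a • b), ← hr] at k4
  rw [map_sub, map_smul] at hr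
  simp only [hm, add_sub_cancel_right, map_add, map_sub, map_smul, LinearMap.add_apply,
    LinearMap.sub_apply, LinearMap.smul_apply, smul_eq_mul, sy a, hb] at *
  rw [show g v = r • a + (v - B v a • b) + B v a • (m + b) by rw [hr]; abel]
  match_scalars <;> grind

end Cfsg.Agent.McL
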